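import Groth.Prelude.Def_Dix
import Groth.Agent.EtpbcA.CharP
import Groth.Agent.S0642
import Groth.Agent.Etcore.SepClosedRed
import Groth.Agent.Etbc.H227.CdIso
import Groth.Agent.Ega3B.ProjProper

/-!
# `cd_p ≤ dim` for quasi-projective schemes over separably closed fields of characteristic `p`
-/

set_option autoImplicit false
universe u
open CategoryTheory CategoryTheory.Limits AlgebraicGeometry Opposite

namespace Groth.Agent.Etbc.H24.SepQP

theorem isProper_toBase (N : ℕ) (S : Scheme.{u}) : IsProper (CohB1.ProjSpaceOver.toBase N S) :=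
  MorphismProperty.pullback_snd _ _ (Groth.Agent.Ega3B.ProjProper.isProper_toSpec N _)

/-- An immersion into a scheme of finite type over a field is quasi-compact. -/
theorem quasiCompact_of_isImmersion (k : Type u) [Field k] {X P : Scheme.{u}}
    (q : P ⟶ Spec (CommRingCat.of k)) [LocallyOfFiniteType q] [QuasiCompact q] (i : X ⟶ P)
    [IsImmersion i] : CompactSpace X := by
  have : CompactSpace P := QuasiCompact.compactSpace_of_compactSpace q
  have : IsNoetherian P := { __ := LocallyOfFiniteType.isLocallyNoetherian q }
  have : TopologicalSpace.NoetherianSpace X := i.isEmbedding.isInducing.noetherianSpace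
  infer_instance

theorem main (k : Type u) [Field k] [IsSepClosed k] (p : ℕ) [Fact p.Prime] [CharP k p]
    (X : Scheme.{u}) (f : X ⟶ Spec (CommRingCat.of k)) [LocallyOfFiniteType f] (N : ℕ)
    (i : X ⟶ CohB1.ProjSpaceOver N (Spec (CommRingCat.of k))) [IsImmersion i]
    (hf : i ≫ CohB1.ProjSpaceOver.toBase N (Spec (CommRingCat.of k)) = f)
    (n : ℕ) (hn : topologicalKrullDim X ≤ n) : Dix.CohDimLEAt X p n := by
  intro F hF q hq
  have hP := isProper_toBase N (Spec (CommRingCat.of k))
  have hc : CompactSpace X :=
    quasiCompact_of_isImmersion k (CohB1.ProjSpaceOver.toBase N (Spec (CommRingCat.of k))) i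
  have hsep : IsSeparated f := by rw [← hf]; infer_instance
  have hqc : QuasiCompact f := by
    rw [HasAffineProperty.iff_of_isAffine (P := @QuasiCompact)]
    exact hc
  let K := AlgebraicClosure k
  have : CharP K p := charP_of_injective_algebraMap (algebraMap k K).injective p
  let a := pullback.fst f (Spec.map (CommRingCat.ofHom (algebraMap k K)))
  let g := pullback.snd f (Spec.map (CommRingCat.ofHom (algebraMap k K)))
  have hA : IsPullback a g f (Spec.map (CommRingCat.ofHom (algebraMap k K))) :=
    IsPullback.of_hasPullback _ _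
  obtain ⟨i1, i2, i3⟩ := Groth.Agent.Etcore.SepClosedRed.bc_spec k K hA
  have e1 := Groth.Agent.Etcore.SepClosedRed.preservesFiniteLimits_pull a
  have hdim : topologicalKrullDim
      (pullback f (Spec.map (CommRingCat.ofHom (algebraMap k K))) : Scheme.{u}) ≤ n :=
    (Topology.IsClosedEmbedding.of_continuous_injective_isClosedMap a.continuous a.injective
      a.isClosedMap).isInducing.topologicalKrullDim_le.trans hn
  have h := Groth.Agent.EtpbcA.CharP.H_subsingleton K p _ g n hdim ((EtCoh.pull a).obj F)
    (Groth.Agent.Etbc.H227.CdIso.isPrimaryTorsion_pull p a F hF) q hq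
  exact (Groth.Agent.S0642.result a F q).injective.subsingleton

end Groth.Agent.Etbc.H24.SepQP
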